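import Cfsg.Agent.WordLaws.SL2
import Cfsg.Prelude.Def_Sz

/-!
A nontrivial word is not a law in large Suzuki groups.
-/

namespace Cfsg.Agent.WordLaws

open Matrix Polynomial

variable {R S : Type*} [CommRing R] [CommRing S]

/-- lower unipotent element of Suzuki type -/
def szLowMat (e : ℕ) (x : R) : Matrix (Fin 4) (Fin 4) R :=
  !![1, 0, 0, 0; 0, 1, 0, 0; x, 0, 1, 0; x ^ e, x, 0, 1]

/-- upper unipotent element of Suzuki type -/
def szUpMat (e : ℕ) (x : R) : Matrix (Fin 4) (Fin 4) R :=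
  !![1, 0, x, x ^ e; 0, 1, 0, x; 0, 0, 1, 0; 0, 0, 0, 1]

theorem pow_e_add [CharP R 2] (k : ℕ) (x y : R) : (x + y) ^ 2 ^ k = x ^ 2 ^ k + y ^ 2 ^ k :=
  add_pow_char_pow x y 2 k

theorem szLowMat_add [CharP R 2] (k : ℕ) (x y : R) :
    szLowMat (2 ^ k) (x + y) = szLowMat (2 ^ k) x * szLowMat (2 ^ k) y := by
  ext i j
  fin_cases i <;> fin_cases j <;>
    simp [szLowMat, Matrix.mul_apply, Fin.sum_univ_four, pow_e_add, add_comm]

theorem szUpMat_add [CharP R 2] (k : ℕ) (x y : R) :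
    szUpMat (2 ^ k) (x + y) = szUpMat (2 ^ k) x * szUpMat (2 ^ k) y := by
  ext i j
  fin_cases i <;> fin_cases j <;>
    simp [szUpMat, Matrix.mul_apply, Fin.sum_univ_four, pow_e_add, add_comm]

/-- as a unit -/
def szLow [CharP R 2] (k : ℕ) (x : R) : GL (Fin 4) R where
  val := szLowMat (2 ^ k) x
  inv := szLowMat (2 ^ k) (-x)
  val_inv := by
    rw [← szLowMat_add, add_neg_cancel]
    ext i j
    fin_cases i <;> fin_cases j <;> simp [szLowMat]
  inv_val := by
    rw [← szLowMat_add, neg_add_cancel]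
    ext i j
    fin_cases i <;> fin_cases j <;> simp [szLowMat]

/-- as a unit -/
def szUp [CharP R 2] (k : ℕ) (x : R) : GL (Fin 4) R where
  val := szUpMat (2 ^ k) x
  inv := szUpMat (2 ^ k) (-x)
  val_inv := by
    rw [← szUpMat_add, add_neg_cancel]
    ext i j
    fin_cases i <;> fin_cases j <;> simp [szUpMat]
  inv_val := by
    rw [← szUpMat_add, neg_add_cancel]
    ext i j
    fin_cases i <;> fin_cases j <;> simp [szUpMat]

@[simp] theorem coe_szLow [CharP R 2] (k : ℕ) (x : R) :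
    (szLow k x : Matrix (Fin 4) (Fin 4) R) = szLowMat (2 ^ k) x := rfl

@[simp] theorem coe_szUp [CharP R 2] (k : ℕ) (x : R) :
    (szUp k x : Matrix (Fin 4) (Fin 4) R) = szUpMat (2 ^ k) x := rfl

theorem map_szLow [CharP R 2] [CharP S 2] (f : R →+* S) (k : ℕ) (x : R) :
    GeneralLinearGroup.map f (szLow k x) = szLow k (f x) := by
  apply Units.ext
  ext i j
  fin_cases i <;> fin_cases j <;> simp [szLowMat]

theorem map_szUp [CharP R 2] [CharP S 2] (f : R →+* S) (k : ℕ) (x : R) :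
    GeneralLinearGroup.map f (szUp k x) = szUp k (f x) := by
  apply Units.ext
  ext i j
  fin_cases i <;> fin_cases j <;> simp [szUpMat]

/-- the test generators -/
def szGen [CharP R 2] (k : ℕ) (t : R) (i : ℕ) : GL (Fin 4) R :=
  szUp k (t * t ^ (2 * i)) * szLow k t * szUp k (t * t ^ (2 * i + 1))

theorem szLow_mem {F : Type*} [Field F] [CharP F 2] (k : ℕ) (x : F)
    (hx : ∀ z : F, (z ^ 2 ^ k) ^ 2 ^ k = z ^ 2) :
    szLow k x ∈ Cfsg.Lie.Sz F (2 ^ k) := by
  have h2 : (2 : F) = 0 := CharTwo.two_eq_zero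
  refine Subgroup.subset_closure ⟨?_, ?_⟩
  · intro u v
    simp [Cfsg.Lie.altForm4, szLowMat, Matrix.mulVec, dotProduct, Fin.sum_univ_four]
    linear_combination (x * (u 0 * v 1 + u 1 * v 0) + x ^ 2 ^ k * (u 0 * v 0)) * h2
  · ext i j
    fin_cases i <;> fin_cases j <;>
      simp [Cfsg.Lie.star4, Cfsg.Lie.pairOf, szLowMat, hx, sq, CharTwo.neg_eq, CharTwo.sub_eq_add]

theorem szUp_mem {F : Type*} [Field F] [CharP F 2] (k : ℕ) (x : F)
    (hx : ∀ z : F, (z ^ 2 ^ k) ^ 2 ^ k = z ^ 2) :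
    szUp k x ∈ Cfsg.Lie.Sz F (2 ^ k) := by
  have h2 : (2 : F) = 0 := CharTwo.two_eq_zero
  refine Subgroup.subset_closure ⟨?_, ?_⟩
  · intro u v
    simp [Cfsg.Lie.altForm4, szUpMat, Matrix.mulVec, dotProduct, Fin.sum_univ_four]
    linear_combination (x * (u 2 * v 3 + u 3 * v 2) + x ^ 2 ^ k * (u 3 * v 3)) * h2
  · ext i j
    fin_cases i <;> fin_cases j <;>
      simp [Cfsg.Lie.star4, Cfsg.Lie.pairOf, szUpMat, hx, sq, CharTwo.neg_eq, CharTwo.sub_eq_add]

/-- the action on column vectors -/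
def glAct : GL (Fin 4) R →* Function.End (Fin 4 → R) where
  toFun g := fun v => (g : Matrix (Fin 4) (Fin 4) R) *ᵥ v
  map_one' := by funext v; simp [Function.End.one_def]
  map_mul' g h := by
    funext v
    exact (Matrix.mulVec_mulVec v (g : Matrix (Fin 4) (Fin 4) R) (h : Matrix (Fin 4) (Fin 4) R)).symm

theorem glAct_apply (g : GL (Fin 4) R) (v : Fin 4 → R) :
    glAct g v = (g : Matrix (Fin 4) (Fin 4) R) *ᵥ v := rfl

theorem exists_szGen_ne_one {F : Type*} [Field F] [Fintype F] [CharP F 2] (k : ℕ) (hk : 1 ≤ k)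
    (w : FreeGroup ℕ) (hw : w ≠ 1) (hF : 2 ^ k * wordBound w < Fintype.card F) :
    ∃ t : F, FreeGroup.lift (szGen k t) w ≠ 1 := by
  set e := 2 ^ k with he
  have he2 : 2 ≤ e := by
    calc 2 = 2 ^ 1 := rfl
      _ ≤ e := Nat.pow_le_pow_right (by omega) hk
  let A : F[X] → GL (Fin 4) F[X] := fun a => szUp k (X * a)
  let B : F[X] → GL (Fin 4) F[X] := fun a => szLow k (X * a)
  let PA : ℕ → Set (Fin 4 → F[X]) := fun δ =>
    {v | (v 0).degree = δ ∧ (v 1).degree < δ ∧ (v 2).degree < δ ∧ (v 3).degree < δ}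
  let PB : ℕ → Set (Fin 4 → F[X]) := fun δ =>
    {v | (v 3).degree = δ ∧ (v 2).degree < δ ∧ (v 1).degree < δ ∧ (v 0).degree < δ}
  have key : ∀ (δ : ℕ) (a x y z u : F[X]), a ≠ 0 → x.degree = δ → y.degree < δ → z.degree < δ →
      u.degree < δ →
      ((X * a) ^ e * x + (X * a) * y + u).degree = ((δ + e * (a.natDegree + 1) : ℕ) : WithBot ℕ) ∧
      ((X * a) * x + z).degree < ((δ + e * (a.natDegree + 1) : ℕ) : WithBot ℕ) ∧
      y.degree < ((δ + e * (a.natDegree + 1) : ℕ) : WithBot ℕ) ∧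
      x.degree < ((δ + e * (a.natDegree + 1) : ℕ) : WithBot ℕ) := by
    intro δ a x y z u ha hx hy hz hu
    set β := a.natDegree + 1 with hβ
    have hXa : (X * a).degree = (β : WithBot ℕ) := by
      rw [degree_mul, degree_X, degree_eq_natDegree ha, hβ]
      norm_cast
      omega
    have h1 : ((X * a) ^ e * x).degree = ((δ + e * β : ℕ) : WithBot ℕ) := by
      rw [degree_mul, degree_pow, hXa, hx, nsmul_eq_mul]
      norm_cast
      omega
    have hlt : δ + β < δ + e * β := by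
      have : 2 * β ≤ e * β := Nat.mul_le_mul he2 le_rfl
      omega
    have hδ : ((δ : ℕ) : WithBot ℕ) < ((δ + e * β : ℕ) : WithBot ℕ) := by
      exact_mod_cast (by omega : δ < δ + e * β)
    have h2 : ((X * a) * y).degree < ((δ + e * β : ℕ) : WithBot ℕ) := by
      rcases eq_or_ne y 0 with rfl | hy0
      · rw [mul_zero, degree_zero]; exact WithBot.bot_lt_coe _
      · rw [degree_mul, hXa, degree_eq_natDegree hy0]
        rw [degree_eq_natDegree hy0] at hy
        norm_cast at hy ⊢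
        omega
    refine ⟨?_, ?_, hy.trans hδ, hx ▸ hδ⟩
    · rw [add_assoc, degree_add_eq_left_of_degree_lt, h1]
      rw [h1]
      exact lt_of_le_of_lt (degree_add_le _ _) (max_lt h2 (hu.trans hδ))
    · refine lt_of_le_of_lt (degree_add_le _ _) (max_lt ?_ (hz.trans hδ))
      rw [degree_mul, hXa, hx]
      norm_cast
      omega
  obtain ⟨M, e₁, e₂, δ, hδ, hlift, hM⟩ := pingpong_word (F := F) A B
    (fun a b => by
      apply Units.ext
      simp only [A, mul_add, Units.val_mul, coe_szUp, szUpMat_add])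
    (fun a b => by
      apply Units.ext
      simp only [B, mul_add, Units.val_mul, coe_szLow, szLowMat_add])
    glAct e PA PB
    (fun δ a ha v hv => by
      obtain ⟨k1, k2, k3, k4⟩ := key δ a (v 3) (v 2) (v 1) (v 0) ha hv.1 hv.2.1 hv.2.2.1 hv.2.2.2
      simp only [PA, Set.mem_ofPred_eq, glAct_apply, A, coe_szUp, szUpMat, ← he]
      simp only [Matrix.mulVec, dotProduct, Fin.sum_univ_four]
      refine ⟨?_, ?_, ?_, ?_⟩
      · rw [← k1]; congr 1; simp; ring
      · convert k2 using 2; simp; ring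
      · simpa using k3
      · simpa using k4)
    (fun δ a ha v hv => by
      obtain ⟨k1, k2, k3, k4⟩ := key δ a (v 0) (v 1) (v 2) (v 3) ha hv.1 hv.2.1 hv.2.2.1 hv.2.2.2
      simp only [PB, Set.mem_ofPred_eq, glAct_apply, B, coe_szLow, szLowMat, ← he]
      simp only [Matrix.mulVec, dotProduct, Fin.sum_univ_four]
      refine ⟨?_, ?_, ?_, ?_⟩
      · rw [← k1]; congr 1; simp
      · convert k2 using 2; simp
      · simpa using k3
      · simpa using k4)
    w hw
  have hfun : (fun i => A (cExp F i) * B 1 * A (dExp F i)) = szGen k (X : F[X]) := by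
    funext i
    simp [A, B, szGen, cExp, dExp]
  rw [hfun] at hlift
  set p : F[X] := (M : Matrix (Fin 4) (Fin 4) F[X]) 3 0 with hp
  have hpd : p.degree = δ := by
    have h := (hM ![1, 0, 0, 0] ⟨by simp, by simp, by simp, by simp⟩).1
    simpa [glAct_apply, Matrix.mulVec, dotProduct, Fin.sum_univ_four, hp] using h
  have hp0 : p ≠ 0 := fun h => by simp [h] at hpd
  have : ∃ t : F, p.eval t ≠ 0 := by
    by_contra! hall
    have := Polynomial.eq_zero_of_natDegree_lt_card_of_eval_eq_zero p (ι := F) Function.injective_id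
      hall (by rw [natDegree_eq_of_degree_eq_some hpd]; exact lt_of_le_of_lt hδ hF)
    exact hp0 this
  obtain ⟨t, hpt⟩ := this
  refine ⟨t, fun hc => hpt ?_⟩
  set f : F[X] →+* F := evalRingHom t
  have hL : GeneralLinearGroup.map f (FreeGroup.lift (szGen k (X : F[X])) w) =
      FreeGroup.lift (szGen k t) w := by
    change ((GeneralLinearGroup.map f).comp (FreeGroup.lift (szGen k (X : F[X])))) w = _
    congr 1
    apply FreeGroup.ext_hom
    intro i
    simp [szGen, map_szUp, map_szLow, f]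
  rw [← hL, hlift, map_mul, map_mul, map_szUp, map_szUp] at hc
  have h30 : ((GeneralLinearGroup.map f (szUp k (X * e₁) * M * szUp k (X * e₂)) : GL (Fin 4) F) :
      Matrix (Fin 4) (Fin 4) F) 3 0 = (1 : Matrix (Fin 4) (Fin 4) F) 3 0 := by
    rw [map_mul, map_mul, map_szUp, map_szUp]
    exact congrArg (fun N : GL (Fin 4) F => (N : Matrix (Fin 4) (Fin 4) F) 3 0) hc
  simp [szUpMat, Matrix.mul_apply, Fin.sum_univ_four] at h30
  simpa [f, hp, Matrix.vecMul, dotProduct, Fin.sum_univ_four] using h30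

theorem exists_nontrivial_suzuki {F : Type*} [Field F] [Fintype F] (w : FreeGroup ℕ) (hw : w ≠ 1)
    (m : ℕ) (hm : wordBound w ≤ m) (hF : Fintype.card F = 2 ^ (2 * m + 1)) :
    ∃ f : ℕ → ↥(Cfsg.Lie.Sz F (2 ^ (m + 1))), FreeGroup.lift f w ≠ 1 := by
  have : CharP F 2 := charP_of_card_eq_prime_pow (f := 2 * m + 1) hF
  have hx : ∀ z : F, (z ^ 2 ^ (m + 1)) ^ 2 ^ (m + 1) = z ^ 2 := by
    intro z
    rw [← pow_mul, ← pow_add, show m + 1 + (m + 1) = 2 * m + 1 + 1 by ring, pow_succ, pow_mul,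
      ← hF, FiniteField.pow_card]
  have hbound : 2 ^ (m + 1) * wordBound w < Fintype.card F := by
    rw [hF]
    calc 2 ^ (m + 1) * wordBound w < 2 ^ (m + 1) * 2 ^ m :=
          Nat.mul_lt_mul_of_pos_left (lt_of_le_of_lt hm m.lt_two_pow_self) (Nat.two_pow_pos _)
      _ = 2 ^ (2 * m + 1) := by rw [← pow_add]; congr 1; omega
  obtain ⟨t, ht⟩ := exists_szGen_ne_one (m + 1) (by omega) w hw hbound
  have hmem : ∀ i, szGen (m + 1) t i ∈ Cfsg.Lie.Sz F (2 ^ (m + 1)) := fun i =>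
    Subgroup.mul_mem _ (Subgroup.mul_mem _ (szUp_mem _ _ hx) (szLow_mem _ _ hx)) (szUp_mem _ _ hx)
  refine ⟨fun i => ⟨_, hmem i⟩, fun h => ht ?_⟩
  have := lift_comp (Subgroup.subtype _) (fun i => (⟨_, hmem i⟩ : ↥(Cfsg.Lie.Sz F (2 ^ (m + 1))))) w
  rw [h, map_one] at this
  exact this

end Cfsg.Agent.WordLaws
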