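import Cfsg.Agent.WordLaws.Block
import Cfsg.Prelude.Def_Classical

/-!
Non-central word values in `SU_n(q)`.
-/

namespace Cfsg.Agent.WordLaws

open Matrix

variable {F : Type*} [Field F]

theorem slToMat_apply (n : ℕ) (g : SpecialLinearGroup (Fin n) F) : Cfsg.slToMat n F g = g.1 := rfl

theorem mem_SU_iff {n q : ℕ} {g : SpecialLinearGroup (Fin n) F} :
    g ∈ Cfsg.SU n F q ↔
      ∀ u v, Cfsg.hermForm n F q (g.1 *ᵥ u) (g.1 *ᵥ v) = Cfsg.hermForm n F q u v := Iff.rfl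

theorem altToSL_mem_SU {n q : ℕ} (σ : alternatingGroup (Fin n)) :
    altToSL n F σ ∈ Cfsg.SU n F q := by
  rw [mem_SU_iff]
  intro u v
  rw [altToSL_mulVec, altToSL_mulVec]
  exact Equiv.sum_comp ((σ : Equiv.Perm (Fin n))⁻¹) (fun i => u i * v i ^ q)

theorem exists_SU_word_of_alt (w : FreeGroup ℕ) {n q : ℕ} (hn : 5 ≤ n)
    (f : ℕ → alternatingGroup (Fin n)) (hf : FreeGroup.lift f w ≠ 1) :
    ∃ g : ℕ → ↥(Cfsg.SU n F q),
      FreeGroup.lift g w ∉ Subgroup.center ↥(Cfsg.SU n F q) := by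
  let φ := (altToSL n F).codRestrict (Cfsg.SU n F q) altToSL_mem_SU
  refine ⟨fun i => φ (f i), ?_⟩
  rw [lift_comp φ f w]
  refine not_mem_center_of_injective φ (fun a b h => altToSL_injective n (congrArg Subtype.val h)) ?_
  rwa [alternatingGroup.center_eq_bot (by simpa using (by omega : 4 ≤ n)), Subgroup.mem_bot]

theorem sl2Block_castAdd (k : ℕ) (g : SpecialLinearGroup (Fin 2) F) (v : Fin (2 + k) → F)
    (i : Fin 2) :
    ((sl2Block k g).1 *ᵥ v) (Fin.castAdd k i) = (g.1 *ᵥ (v ∘ Fin.castAdd k)) i := by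
  change ∑ j, (Matrix.reindexAlgEquiv F F finSumFinEquiv
    (fromBlocks g.1 0 0 (1 : Matrix (Fin k) (Fin k) F))) (Fin.castAdd k i) j * v j = _
  rw [Fin.sum_univ_add]
  simp [Matrix.mulVec, dotProduct]

theorem sl2Block_natAdd (k : ℕ) (g : SpecialLinearGroup (Fin 2) F) (v : Fin (2 + k) → F)
    (i : Fin k) :
    ((sl2Block k g).1 *ᵥ v) (Fin.natAdd 2 i) = v (Fin.natAdd 2 i) := by
  change ∑ j, (Matrix.reindexAlgEquiv F F finSumFinEquiv
    (fromBlocks g.1 0 0 (1 : Matrix (Fin k) (Fin k) F))) (Fin.natAdd 2 i) j * v j = _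
  rw [Fin.sum_univ_add]
  simp [Matrix.one_apply]

/-- elements of `SL₂` fixed entrywise by `φ` -/
def fixedSL2 (φ : F →+* F) : Subgroup (SpecialLinearGroup (Fin 2) F) :=
  MonoidHom.eqLocus (SpecialLinearGroup.map φ) (MonoidHom.id _)

theorem exists_SU_word_of_sl2 [Fintype F] (w : FreeGroup ℕ) (hw : w ≠ 1) (k q : ℕ)
    (hF : Fintype.card F = q ^ 2) (hq : wordBound w + 4 ≤ q) :
    ∃ g : ℕ → ↥(Cfsg.SU (2 + k) F q),
      FreeGroup.lift g w ∉ Subgroup.center ↥(Cfsg.SU (2 + k) F q) := by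
  classical
  obtain ⟨p, hp, hchar⟩ : ∃ p : ℕ, p.Prime ∧ CharP F p := by
    obtain ⟨p, hp⟩ := CharP.exists F
    exact ⟨p, CharP.char_is_prime F p, hp⟩
  have : Fact p.Prime := ⟨hp⟩
  obtain ⟨e, -, he⟩ := FiniteField.card F p
  have hqdvd : q ∣ p ^ (e : ℕ) := by rw [← he, hF, sq]; exact dvd_mul_right q q
  obtain ⟨j, -, hj⟩ := (Nat.dvd_prime_pow hp).1 hqdvd
  let φ : F →+* F := iterateFrobenius F p j
  have hφ : ∀ x, φ x = x ^ q := fun x => by rw [hj]; exact iterateFrobenius_def p j x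
  have hφ2 : ∀ x, φ (φ x) = x := fun x => by
    rw [hφ, hφ, ← pow_mul, ← sq, ← hF, FiniteField.pow_card]
  obtain ⟨γ, hγ⟩ := IsCyclic.exists_generator (α := Fˣ)
  have hord : orderOf γ = q ^ 2 - 1 := by
    rw [orderOf_eq_card_of_forall_mem_zpowers hγ, Nat.card_eq_fintype_card, Fintype.card_units, hF]
  have hsq : q ^ 2 - 1 = (q + 1) * (q - 1) := by
    have := Nat.sq_sub_sq q 1
    rw [one_pow] at this
    exact this
  have hpos : 0 < (q + 1) * (q - 1) := Nat.mul_pos (by omega) (by omega)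
  -- the fixed field has at least q - 1 elements
  let T : Finset F := (Finset.range (q - 1)).image fun i => ((γ ^ ((q + 1) * i) : Fˣ) : F)
  have hTcard : T.card = q - 1 := by
    rw [Finset.card_image_of_injOn, Finset.card_range]
    intro a ha b hb hab
    rw [Finset.coe_range, Set.mem_Iio] at ha hb
    have h1 : γ ^ ((q + 1) * a) = γ ^ ((q + 1) * b) := Units.ext hab
    have h2 := pow_injOn_Iio_orderOf (x := γ)
      (show (q + 1) * a ∈ Set.Iio (orderOf γ) by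
        rw [Set.mem_Iio, hord, hsq]; exact Nat.mul_lt_mul_of_pos_left ha (by omega))
      (show (q + 1) * b ∈ Set.Iio (orderOf γ) by
        rw [Set.mem_Iio, hord, hsq]; exact Nat.mul_lt_mul_of_pos_left hb (by omega)) h1
    exact Nat.eq_of_mul_eq_mul_left (by omega) h2
  have hTfix : ∀ t ∈ T, φ t = t := by
    intro t ht
    obtain ⟨i, -, rfl⟩ := Finset.mem_image.1 ht
    rw [hφ, ← Units.val_pow_eq_pow_val]
    congr 1
    rw [← pow_mul, pow_eq_pow_iff_modEq, hord, hsq]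
    have hqq : (q + 1) * i * q = (q + 1) * i + ((q + 1) * (q - 1)) * i := by
      obtain ⟨r, rfl⟩ : ∃ r, q = r + 1 := ⟨q - 1, by omega⟩
      rw [Nat.add_sub_cancel]
      ring
    rw [hqq]
    exact (Nat.ModEq.refl _).add (Nat.modEq_zero_iff_dvd.2 (dvd_mul_right _ _)) |>.trans
      (by rw [add_zero])
  -- the hyperbolic basis
  obtain ⟨z, z', hz, hz', hne⟩ : ∃ z z' : F, z ^ (q + 1) = -1 ∧ z' ^ (q + 1) = -1 ∧ z ≠ z' := by
    have hgen : (γ ^ (q - 1)) ^ (q + 1) = 1 := by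
      rw [← pow_mul, mul_comm, ← hsq, ← hord, pow_orderOf_eq_one]
    have hne1 : γ ^ (q - 1) ≠ 1 := by
      intro h
      have := orderOf_dvd_of_pow_eq_one h
      rw [hord, hsq] at this
      have := Nat.le_of_dvd (by omega) this
      have : 2 * (q - 1) ≤ (q + 1) * (q - 1) := Nat.mul_le_mul (by omega) le_rfl
      omega
    obtain ⟨z, hz⟩ : ∃ z : Fˣ, z ^ (q + 1) = -1 := by
      obtain ⟨i, hi⟩ := (mem_zpowers_iff_mem_range_orderOf (x := γ)).1 (hγ (-1)) |> Finset.mem_image.1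
      have h2 : γ ^ (i * 2) = 1 := by rw [pow_mul, hi.2]; simp
      have hd := orderOf_dvd_of_pow_eq_one h2
      rw [hord, hsq] at hd
      obtain ⟨l, rfl⟩ : q + 1 ∣ i := by
        rcases Nat.even_or_odd q with hev | hodd
        · have hcop : Nat.Coprime (q + 1) 2 :=
            (Nat.coprime_two_right.2 (hev.add_one))
          exact hcop.dvd_of_dvd_mul_right ((dvd_mul_right _ _).trans hd)
        · obtain ⟨s, hs⟩ := hodd
          have : q - 1 = 2 * s := by omega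
          rw [this, ← mul_assoc, mul_comm (q + 1) 2, mul_assoc, mul_comm i 2] at hd
          exact (dvd_mul_right _ _).trans (Nat.dvd_of_mul_dvd_mul_left (by omega) hd)
      exact ⟨γ ^ l, by rw [← pow_mul, mul_comm]; exact hi.2⟩
    refine ⟨(z : F), ((z * γ ^ (q - 1) : Fˣ) : F), ?_, ?_, ?_⟩
    · rw [← Units.val_pow_eq_pow_val, hz, Units.val_neg, Units.val_one]
    · rw [← Units.val_pow_eq_pow_val, mul_pow, hz, hgen, mul_one, Units.val_neg, Units.val_one]
    · intro h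
      exact hne1 (left_eq_mul.1 (Units.ext h))
  obtain ⟨ξ, hξ0, hξ⟩ : ∃ ξ : F, ξ ≠ 0 ∧ φ ξ = -ξ := by
    by_cases h : ∃ x : F, φ x - x ≠ 0
    · obtain ⟨x, hx⟩ := h
      exact ⟨φ x - x, hx, by rw [map_sub, hφ2, neg_sub]⟩
    · exfalso
      push Not at h
      have h1 : γ ^ (q - 1) = 1 := by
        have := h (γ : F)
        rw [sub_eq_zero, hφ, ← Units.val_pow_eq_pow_val] at this
        have h2 : γ ^ (q - 1) * γ = 1 * γ := by
          rw [← pow_succ, show q - 1 + 1 = q by omega, one_mul]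
          exact Units.ext this
        exact mul_right_cancel h2
      have := orderOf_dvd_of_pow_eq_one h1
      rw [hord, hsq] at this
      have := Nat.le_of_dvd (by omega) this
      have : 2 * (q - 1) ≤ (q + 1) * (q - 1) := Nat.mul_le_mul (by omega) le_rfl
      omega
  have hzz : z * φ z = -1 := by rw [hφ, ← pow_succ', hz]
  have hzz' : z' * φ z' = -1 := by rw [hφ, ← pow_succ', hz']
  set d : F := 1 + z * φ z' with hd
  have hd0 : d ≠ 0 := by
    intro h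
    have h1 : z * φ z' = z * φ z := by rw [hzz]; linear_combination h
    have hz0 : z ≠ 0 := fun h0 => by simp [h0] at hzz
    have h2 := congrArg φ (mul_left_cancel₀ hz0 h1)
    rw [hφ2, hφ2] at h2
    exact hne h2.symm
  set μ : F := φ (ξ / d) with hμ
  have hμ0 : μ ≠ 0 := by
    rw [hμ, map_ne_zero]
    exact div_ne_zero hξ0 hd0
  have hμd : φ μ * d = ξ := by rw [hμ, hφ2, div_mul_cancel₀ _ hd0]
  have hμd' : μ * φ d = -ξ := by rw [hμ, ← map_mul, div_mul_cancel₀ _ hd0, hξ]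
  have hdet : IsUnit (!![1, μ; z, μ * z'] : Matrix (Fin 2) (Fin 2) F).det := by
    rw [Matrix.det_fin_two]
    simp only [Matrix.of_apply, Matrix.cons_val', Matrix.cons_val_zero, Matrix.cons_val_one,
      Matrix.cons_val_fin_one]
    rw [one_mul, ← mul_sub, isUnit_iff_ne_zero]
    exact mul_ne_zero hμ0 (sub_ne_zero.2 hne.symm)
  set P : Matrix (Fin 2) (Fin 2) F := !![1, μ; z, μ * z'] with hP
  have hform : ∀ a b : Fin 2 → F,
      (P *ᵥ a) 0 * φ ((P *ᵥ b) 0) + (P *ᵥ a) 1 * φ ((P *ᵥ b) 1) =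
        ξ * (a 0 * φ (b 1) - a 1 * φ (b 0)) := by
    intro a b
    simp [hP, Matrix.mulVec, dotProduct, Fin.sum_univ_two, map_add, map_mul]
    linear_combination (a 0 * φ (b 0)) * hzz + (μ * φ μ * a 1 * φ (b 1)) * hzz' +
      (a 0 * φ (b 1)) * hμd + (a 1 * φ (b 0)) * hμd' +
      (-(a 0 * φ (b 1) * φ μ)) * hd + (-(a 1 * φ (b 0) * μ)) * (congrArg φ hd).trans
        (show φ (1 + z * φ z') = 1 + φ z * z' by rw [map_add, map_one, map_mul, hφ2])
  let cj : ↥(fixedSL2 φ) →* SpecialLinearGroup (Fin 2) F :=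
    { toFun := fun g => ⟨P * g.1.1 * P⁻¹, by
        rw [Matrix.det_mul, Matrix.det_mul, g.1.2, mul_one, ← Matrix.det_mul,
          Matrix.mul_nonsing_inv P hdet, Matrix.det_one]⟩
      map_one' := Subtype.ext (by
        change P * (1 : Matrix (Fin 2) (Fin 2) F) * P⁻¹ = (1 : Matrix (Fin 2) (Fin 2) F)
        rw [mul_one, Matrix.mul_nonsing_inv P hdet])
      map_mul' := fun g h => Subtype.ext (by
        change P * (g.1.1 * h.1.1) * P⁻¹ = P * g.1.1 * P⁻¹ * (P * h.1.1 * P⁻¹)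
        simp only [Matrix.mul_assoc, Matrix.nonsing_inv_mul_cancel_left P _ hdet]) }
  have hcj : Function.Injective cj := by
    intro g h e
    apply Subtype.ext
    apply Subtype.ext
    have e1 : P * g.1.1 * P⁻¹ = P * h.1.1 * P⁻¹ := congrArg Subtype.val e
    have e2 := congrArg (fun M => P⁻¹ * M * P) e1
    simpa [Matrix.mul_assoc, Matrix.nonsing_inv_mul_cancel_left P _ hdet,
      Matrix.nonsing_inv_mul P hdet] using e2
  have hSU : ∀ g : ↥(fixedSL2 φ), sl2Block k (cj g) ∈ Cfsg.SU (2 + k) F q := by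
    intro g
    rw [mem_SU_iff]
    intro u v
    simp only [Cfsg.hermForm, Fin.sum_univ_add, sl2Block_natAdd, sl2Block_castAdd, ← hφ]
    congr 1
    simp only [Fin.sum_univ_two]
    change (((P * g.1.1 * P⁻¹) *ᵥ (u ∘ Fin.castAdd k)) 0) * _ + _ = _
    set a := P⁻¹ *ᵥ (u ∘ Fin.castAdd k) with ha
    set b := P⁻¹ *ᵥ (v ∘ Fin.castAdd k) with hb
    have hu : (P * g.1.1 * P⁻¹) *ᵥ (u ∘ Fin.castAdd k) = P *ᵥ (g.1.1 *ᵥ a) := by
      rw [ha, Matrix.mulVec_mulVec, Matrix.mulVec_mulVec, Matrix.mul_assoc]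
    have hv : (P * g.1.1 * P⁻¹) *ᵥ (v ∘ Fin.castAdd k) = P *ᵥ (g.1.1 *ᵥ b) := by
      rw [hb, Matrix.mulVec_mulVec, Matrix.mulVec_mulVec, Matrix.mul_assoc]
    have hu0 : u ∘ Fin.castAdd k = P *ᵥ a := by
      rw [ha, Matrix.mulVec_mulVec, Matrix.mul_nonsing_inv P hdet, Matrix.one_mulVec]
    have hv0 : v ∘ Fin.castAdd k = P *ᵥ b := by
      rw [hb, Matrix.mulVec_mulVec, Matrix.mul_nonsing_inv P hdet, Matrix.one_mulVec]
    change (((P * g.1.1 * P⁻¹) *ᵥ (u ∘ Fin.castAdd k)) 0) *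
        φ (((P * g.1.1 * P⁻¹) *ᵥ (v ∘ Fin.castAdd k)) 0) +
      (((P * g.1.1 * P⁻¹) *ᵥ (u ∘ Fin.castAdd k)) 1) *
        φ (((P * g.1.1 * P⁻¹) *ᵥ (v ∘ Fin.castAdd k)) 1) =
      (u ∘ Fin.castAdd k) 0 * φ ((v ∘ Fin.castAdd k) 0) +
        (u ∘ Fin.castAdd k) 1 * φ ((v ∘ Fin.castAdd k) 1)
    rw [hu, hv, hu0, hv0, hform, hform]
    have hg : ∀ i i', φ (g.1.1 i i') = g.1.1 i i' := fun i i' =>
      congrArg (fun M : SpecialLinearGroup (Fin 2) F => M.1 i i') g.2
    have hdg := g.1.2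
    rw [Matrix.det_fin_two] at hdg
    simp only [Matrix.mulVec, dotProduct, Fin.sum_univ_two, map_add, map_mul, hg]
    linear_combination (ξ * (a 0 * φ (b 1) - a 1 * φ (b 0))) * hdg
  let ψ : ↥(fixedSL2 φ) →* ↥(Cfsg.SU (2 + k) F q) := ((sl2Block k).comp cj).codRestrict _ hSU
  have hψ : Function.Injective ψ := fun g h e =>
    hcj (sl2Block_injective k (congrArg Subtype.val e))
  obtain ⟨t, ht, htw⟩ := exists_noncentral_sl2 w hw T (by rw [hTcard]; omega)
  have hfu : ∀ x : F, φ x = x → uMat x ∈ fixedSL2 φ := fun x hx => by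
    change SpecialLinearGroup.map φ (uMat x) = uMat x
    rw [map_uMat, hx]
  have hfl : ∀ x : F, φ x = x → lMat x ∈ fixedSL2 φ := fun x hx => by
    change SpecialLinearGroup.map φ (lMat x) = lMat x
    rw [map_lMat, hx]
  have hgen : ∀ i, sl2Gen t i ∈ fixedSL2 φ := fun i =>
    mul_mem (mul_mem (hfu _ (by simp [hTfix t ht])) (hfl _ (hTfix t ht)))
      (hfu _ (by simp [hTfix t ht]))
  refine ⟨fun i => ψ ⟨_, hgen i⟩, ?_⟩
  rw [lift_comp ψ _ w]
  refine not_mem_center_of_injective ψ hψ ?_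
  intro hc
  have hval : ((FreeGroup.lift (fun i => (⟨_, hgen i⟩ : ↥(fixedSL2 φ))) w : ↥(fixedSL2 φ)) :
      SpecialLinearGroup (Fin 2) F) = FreeGroup.lift (sl2Gen t) w :=
    (lift_comp (Subgroup.subtype _) _ w).symm
  refine htw (hval ▸ center_of_commute_uMat_lMat ?_ ?_)
  · exact congrArg Subtype.val (Subgroup.mem_center_iff.1 hc ⟨_, hfu 1 (map_one φ)⟩)
  · exact congrArg Subtype.val (Subgroup.mem_center_iff.1 hc ⟨_, hfl 1 (map_one φ)⟩)

end Cfsg.Agent.WordLaws
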