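import Cfsg.Agent.WordLaws.Forms
import Cfsg.Agent.WordLaws.Unitary

/-!
A nontrivial word is a law in only boundedly many alternating or classical simple groups.
-/

namespace Cfsg.Agent.WordLaws

open Matrix

theorem law_transfer {G H : Type*} [Group G] [Group H] (e : G ≃* H) (w : FreeGroup ℕ)
    (hlaw : ∀ f : ℕ → G, FreeGroup.lift f w = 1) (g : ℕ → H) : FreeGroup.lift g w = 1 := by
  have := lift_comp e.toMonoidHom (fun i => e.symm (g i)) w
  simpa [hlaw] using this

theorem law_no_noncentral {G K H : Type*} [Group G] [Group K] [Group H]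
    (e : G ≃* H ⧸ Subgroup.center H) (w : FreeGroup ℕ)
    (hlaw : ∀ f : ℕ → G, FreeGroup.lift f w = 1) (φ : K →* H) (hφ : Function.Injective φ)
    (f : ℕ → K) : FreeGroup.lift f w ∈ Subgroup.center K := by
  by_contra h
  obtain ⟨g, hg⟩ := exists_quotient_word φ hφ w f h
  exact hg (law_transfer e w hlaw g)

theorem card_le_of_matrix {H : Type*} [Group H] {F : Type*} [Fintype F] {ι : Type} [Fintype ι]
    [DecidableEq ι] (toMat : H → Matrix ι ι F) (hinj : Function.Injective toMat) :
    Nat.card H ≤ Fintype.card F ^ (Fintype.card ι * Fintype.card ι) := by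
  refine (Nat.card_le_card_of_injective toMat hinj).trans (le_of_eq ?_)
  change Nat.card (ι → ι → F) = _
  rw [Nat.card_fun, Nat.card_fun, Nat.card_eq_fintype_card, Nat.card_eq_fintype_card, ← pow_mul]

theorem card_quot_le {H : Type*} [Group H] [Finite H] (N : Subgroup H) :
    Nat.card (H ⧸ N) ≤ Nat.card H :=
  Nat.card_le_card_of_surjective _ (QuotientGroup.mk_surjective (s := N))

theorem linear_bounded (w : FreeGroup ℕ) (hw : w ≠ 1) {N : ℕ}
    (hN : ∀ n : ℕ, N ≤ n → ∃ f : ℕ → alternatingGroup (Fin n), FreeGroup.lift f w ≠ 1)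
    {F : Type*} [Field F] [Fintype F] {m : ℕ} (hm : 2 ≤ m)
    (hc : ∀ f : ℕ → ↥(commutator (SpecialLinearGroup (Fin m) F)),
      FreeGroup.lift f w ∈ Subgroup.center ↥(commutator (SpecialLinearGroup (Fin m) F))) :
    m < N + 5 ∧ Fintype.card F < wordBound w + 4 := by
  constructor <;> by_contra h
  · obtain ⟨f, hf⟩ := hN m (by omega)
    obtain ⟨g, hg⟩ := exists_comm_word_of_alt (F := F) w (by omega) f hf
    exact hg (hc g)
  · obtain ⟨k, rfl⟩ : ∃ k, m = 2 + k := ⟨m - 2, by omega⟩
    obtain ⟨g, hg⟩ := exists_comm_word_of_sl2 (F := F) w hw k (by omega)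
    exact hg (hc g)

theorem pow_bound_le {a d A D : ℕ} (ha : a ≤ A) (hd : d ≤ D) (hA : 1 ≤ A) :
    a ^ (d * d) ≤ A ^ (D * D) :=
  (Nat.pow_le_pow_left ha _).trans (Nat.pow_le_pow_right hA (Nat.mul_le_mul hd hd))

theorem toGL_coe_injective {ι : Type} [Fintype ι] [DecidableEq ι] {F : Type*} [Field F]
    {S : Subgroup (GL ι F)} (T : Subgroup S) :
    Function.Injective (fun x : T => ((x : S) : GL ι F).1) :=
  fun _ _ h => Subtype.ext (Subtype.ext (Units.ext h))

theorem classical_law_bounded (w : FreeGroup ℕ) (hw : w ≠ 1) :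
    ∃ N : ℕ, ∀ (G : Type*) [Group G] [Finite G],
      (Cfsg.IsAlternating G ∨ Cfsg.IsPSL G ∨ Cfsg.IsPSp G ∨ Cfsg.IsPSU G ∨ Cfsg.IsPOmegaOdd G ∨
          Cfsg.IsPOmegaPlus G ∨ Cfsg.IsPOmegaMinus G) →
      (∀ f : ℕ → G, FreeGroup.lift f w = 1) → Nat.card G ≤ N := by
  classical
  obtain ⟨N, hN⟩ := exists_nontrivial_alternating w hw
  set A := (wordBound w + 4) ^ 2 with hA
  set D := 2 * (N + 5) + 2 with hD
  refine ⟨max N.factorial (A ^ (D * D)), fun G _ _ hG hlaw => ?_⟩
  have hA1 : 1 ≤ A := Nat.one_le_pow _ _ (by omega)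
  have hqA : ∀ {q : ℕ}, q < wordBound w + 4 → q ≤ A := fun hq =>
    (le_of_lt hq).trans (Nat.le_self_pow (by norm_num) _)
  rcases hG with hG | hG | hG | hG | hG | hG | hG
  · obtain ⟨n, hn, ⟨e⟩⟩ := hG
    have hlt : n < N := by
      by_contra h
      obtain ⟨f, hf⟩ := hN n (by omega)
      exact hf (law_transfer e w hlaw f)
    refine le_trans ?_ (le_max_left _ _)
    rw [Nat.card_congr e.toEquiv]
    refine (Nat.card_le_card_of_injective _ Subtype.val_injective).trans ?_
    rw [Nat.card_perm, Nat.card_eq_fintype_card, Fintype.card_fin]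
    exact Nat.factorial_le hlt.le
  · obtain ⟨F, _, _, m, hm, -, ⟨e⟩⟩ := hG
    obtain ⟨h1, h2⟩ := linear_bounded w hw hN hm (fun f => law_no_noncentral e w hlaw
      (Subgroup.subtype _) Subtype.val_injective f)
    refine le_trans ?_ (le_max_right _ _)
    rw [Nat.card_congr e.toEquiv]
    refine (card_quot_le _).trans ((card_le_of_matrix (fun x : SpecialLinearGroup (Fin m) F => x.1)
      (fun _ _ h => Subtype.ext h)).trans ?_)
    exact pow_bound_le (hqA h2) (by simp only [Fintype.card_fin]; omega) hA1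
  · obtain ⟨F, _, _, m, hm, -, ⟨e⟩⟩ := hG
    obtain ⟨h1, h2⟩ := linear_bounded w hw hN hm (fun f => law_no_noncentral e w hlaw
      ((leviSp m).comp (Subgroup.subtype _))
      ((leviSp_injective m).comp Subtype.val_injective) f)
    refine le_trans ?_ (le_max_right _ _)
    rw [Nat.card_congr e.toEquiv]
    refine (card_quot_le _).trans ((card_le_of_matrix (fun x : ↥(Matrix.symplecticGroup (Fin m) F) => x.1)
      Subtype.val_injective).trans ?_)
    exact pow_bound_le (hqA h2) (by simp only [Fintype.card_sum, Fintype.card_fin]; omega) hA1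
  · obtain ⟨F, _, _, m, q, hF, hm, -, ⟨e⟩⟩ := hG
    have hc : ∀ f : ℕ → ↥(Cfsg.SU m F q),
        FreeGroup.lift f w ∈ Subgroup.center ↥(Cfsg.SU m F q) := fun f =>
      law_no_noncentral e w hlaw (MonoidHom.id _) (fun _ _ h => h) f
    have h1 : m < N + 5 := by
      by_contra h
      obtain ⟨f, hf⟩ := hN m (by omega)
      obtain ⟨g, hg⟩ := exists_SU_word_of_alt (F := F) (q := q) w (by omega) f hf
      exact hg (hc g)
    have h2 : q < wordBound w + 4 := by
      by_contra h
      obtain ⟨k, rfl⟩ : ∃ k, m = 2 + k := ⟨m - 2, by omega⟩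
      obtain ⟨g, hg⟩ := exists_SU_word_of_sl2 (F := F) w hw k q hF (by omega)
      exact hg (hc g)
    refine le_trans ?_ (le_max_right _ _)
    rw [Nat.card_congr e.toEquiv]
    refine (card_quot_le _).trans ((card_le_of_matrix (fun x : ↥(Cfsg.SU m F q) => x.1.1)
      (fun _ _ h => Subtype.ext (Subtype.ext h))).trans ?_)
    refine pow_bound_le ?_ (by simp only [Fintype.card_fin]; omega) hA1
    rw [hF]
    exact Nat.pow_le_pow_left h2.le 2
  · obtain ⟨F, _, _, m, hm, -, ⟨e⟩⟩ := hG
    obtain ⟨h1, h2⟩ := linear_bounded w hw hN (show 2 ≤ m by omega)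
      (fun f => law_no_noncentral e w hlaw _
        (commHom_injective (toIsometry_injective _ (levi_odd m)
          (padLeft_injective (leviMat_injective m)))) f)
    refine le_trans ?_ (le_max_right _ _)
    rw [Nat.card_congr e.toEquiv]
    refine (card_quot_le _).trans ((card_le_of_matrix _ (toGL_coe_injective _)).trans ?_)
    exact pow_bound_le (hqA h2)
      (by simp only [Fintype.card_sum, Fintype.card_fin, Fintype.card_unit]; omega) hA1
  · obtain ⟨F, _, _, m, hm, ⟨e⟩⟩ := hG
    obtain ⟨h1, h2⟩ := linear_bounded w hw hN (show 2 ≤ m by omega)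
      (fun f => law_no_noncentral e w hlaw _
        (commHom_injective (toIsometry_injective _ (levi_plus m) (leviMat_injective m))) f)
    refine le_trans ?_ (le_max_right _ _)
    rw [Nat.card_congr e.toEquiv]
    refine (card_quot_le _).trans ((card_le_of_matrix _ (toGL_coe_injective _)).trans ?_)
    exact pow_bound_le (hqA h2) (by simp only [Fintype.card_sum, Fintype.card_fin]; omega) hA1
  · obtain ⟨F, _, _, m, a, b, hm, -, ⟨e⟩⟩ := hG
    obtain ⟨h1, h2⟩ := linear_bounded w hw hN (show 2 ≤ m - 1 by omega)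
      (fun f => law_no_noncentral e w hlaw _
        (commHom_injective (toIsometry_injective _ (levi_minus (m - 1) a b)
          (padRight_injective (leviMat_injective (m - 1))))) f)
    refine le_trans ?_ (le_max_right _ _)
    rw [Nat.card_congr e.toEquiv]
    refine (card_quot_le _).trans ((card_le_of_matrix _ (toGL_coe_injective _)).trans ?_)
    exact pow_bound_le (hqA h2) (by simp only [Fintype.card_sum, Fintype.card_fin]; omega) hA1

end Cfsg.Agent.WordLaws
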